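import Cfsg.Agent.LieClassical.OrthFinite

/-!
# Quadratic spaces with a self-adjoint extension field (helper408, S3499 Om-C3)

`F ≤ E` finite fields, `2 ≠ 0`, `V` a vector space over `E`, `Q` a quadratic form over `F` on `V` with
`polar Q (k u) v = polar Q u (k v)`.

* `exists_kform` : the quadratic form over `E` whose trace is `Q`;
* `exists_data` : if `[E : F] ≥ 3` and `dim_E V ≥ 3`, there are independent singular orthogonal vectors `u`, `v` over `F` and a
  commutator `h` of two `E`-linear isometries with `h u = - u`, `h v = v`.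
-/

set_option autoImplicit false
set_option linter.unusedSectionVars false

namespace Cfsg.Agent.H408.EP

open QuadraticMap Module
open Cfsg.Agent.LieClassical.OrthCore Cfsg.Agent.LieClassical.OrthTrans Cfsg.Agent.LieClassical.OrthFinite

section orth

variable {E V : Type*} [Field E] [AddCommGroup V] [Module E V] {Q : QuadraticForm E V}

/-- two orthogonal vectors with the same nonzero value -/
theorem exists_pair [Finite E] (hQ : Nondeg Q) (hd : 3 ≤ finrank E V) :
    ∃ u w : V, polar Q u w = 0 ∧ Q u = Q w ∧ Q w ≠ 0 := by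
  obtain ⟨x, hx0, hx, -⟩ := exists_sing_perp (Q := Q) (n := 0) Fin.elim0 (by omega)
  obtain ⟨y, hxy⟩ := exists_hyp hQ hx hx0
  obtain ⟨a, c, h1, h2, h3, h4, h5⟩ := exists_perp2 hQ hd hxy
  obtain ⟨w, hxw, hyw, hw⟩ : ∃ w, polar Q x w = 0 ∧ polar Q y w = 0 ∧ Q w ≠ 0 := by
    rcases exists_nonsing h5 with h | h | h
    · exact ⟨a, h1, h2, h⟩
    · exact ⟨c, h3, h4, h⟩
    · exact ⟨a + c, by rw [polar_add_right, h1, h3, add_zero], by rw [polar_add_right, h2, h4, add_zero], h⟩
  refine ⟨x + Q w • y, w, ?_, ?_, hw⟩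
  · rw [polar_add_left, polar_smul_left, hxw, hyw, smul_zero, add_zero]
  · rw [Q_add, QuadraticMap.map_smul, hx, hxy.right, polar_smul_right, hxy.pair]
    simp

end orth

section ext

variable {F E V : Type*} [Field F] [Finite F] [Field E] [Finite E] [Algebra F E] [AddCommGroup V] [Module F V]
  [Module E V] [IsScalarTower F E V] [FiniteDimensional F V] {Q : QuadraticForm F V}

/-- **The form over the extension field.** -/
theorem exists_kform (h2 : (2 : F) ≠ 0) (hQ : Nondeg Q) (hself : ∀ (k : E) (u v : V), polar Q (k • u) v = polar Q u (k • v)) :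
    ∃ QE : QuadraticForm E V, Nondeg QE ∧ (∀ v, Q v = Algebra.trace F E (QE v)) ∧
      ∀ u v, polar Q u v = Algebra.trace F E (polar QE u v) := by
  have hfinE : FiniteDimensional F E := inferInstance
  have hnd := traceForm_nondegenerate F E
  have h2E : (2 : E) ≠ 0 := by
    intro h
    apply h2
    have h3 : algebraMap F E 2 = 0 := by rw [map_ofNat]; exact h
    exact (map_eq_zero_iff _ (algebraMap F E).injective).1 h3
  have inj : ∀ c d : E, (∀ x, Algebra.trace F E (c * x) = Algebra.trace F E (d * x)) → c = d := by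
    intro c d h
    rw [← sub_eq_zero]
    apply hnd.1
    intro x
    rw [Algebra.traceForm_apply, sub_mul, map_sub, h, sub_self]
  have hex : ∀ u v : V, ∃ c : E, ∀ x : E, Algebra.trace F E (c * x) = polar Q (x • u) v := by
    intro u v
    let φ : Module.Dual F E :=
      { toFun := fun x => polar Q (x • u) v
        map_add' := fun x y => by rw [add_smul, polar_add_left]
        map_smul' := fun a x => by rw [smul_assoc, polar_smul_left, RingHom.id_apply] }
    refine ⟨(LinearMap.BilinForm.toDual _ hnd).symm φ, fun x => ?_⟩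
    have h1 := LinearMap.BilinForm.apply_toDual_symm_apply (B := Algebra.traceForm F E) (hB := hnd) φ x
    rwa [Algebra.traceForm_apply] at h1
  choose b hb using hex
  have badd : ∀ u u' v, b (u + u') v = b u v + b u' v := by
    intro u u' v
    apply inj
    intro x
    rw [hb, add_mul, map_add, hb, hb, smul_add, polar_add_left]
  have bsmul : ∀ (k : E) u v, b (k • u) v = k * b u v := by
    intro k u v
    apply inj
    intro x
    rw [hb, smul_smul, ← hb, mul_comm k, mul_assoc, mul_comm x k]
  have bsymm : ∀ u v, b u v = b v u := by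
    intro u v
    apply inj
    intro x
    rw [hb, hb, hself, polar_comm]
  let B : LinearMap.BilinForm E V :=
    LinearMap.mk₂ E b badd (fun k u v => by rw [bsmul, smul_eq_mul])
      (fun u v v' => by rw [bsymm, badd, bsymm v, bsymm v']) (fun k u v => by rw [bsymm, bsmul, bsymm v, smul_eq_mul])
  have hB : ∀ u v, B u v = b u v := fun u v => rfl
  let QE : QuadraticForm E V := ((2 : E)⁻¹ • B).toQuadraticMap
  have hQE : ∀ v, QE v = 2⁻¹ * b v v := fun v => rfl
  have hpE : ∀ u v, polar QE u v = b u v := by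
    intro u v
    rw [QuadraticMap.polar, hQE, hQE, hQE, badd, bsymm u (u + v), bsymm v (u + v), badd, badd, bsymm v u]
    field_simp
    ring
  have htr : ∀ u v, polar Q u v = Algebra.trace F E (polar QE u v) := by
    intro u v
    rw [hpE]
    have h1 := hb u v 1
    rw [mul_one, one_smul] at h1
    exact h1.symm
  refine ⟨QE, ?_, ?_, htr⟩
  · intro x hx
    apply hQ
    intro y
    rw [htr, hx, map_zero]
  · intro v
    have h1 := htr v v
    rw [polar_self', polar_self'] at h1
    have h3 : Algebra.trace F E (2 * QE v) = 2 * Algebra.trace F E (QE v) := by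
      rw [two_mul, map_add, two_mul]
    rw [h3] at h1
    exact mul_left_cancel₀ h2 h1

/-- **The data.** -/
theorem exists_data (h2 : (2 : F) ≠ 0) (hQ : Nondeg Q)
    (hself : ∀ (k : E) (u v : V), polar Q (k • u) v = polar Q u (k • v)) (h3 : 3 ≤ finrank F E)
    (hd : 3 * finrank F E ≤ finrank F V) :
    ∃ u v : V, u ≠ 0 ∧ v ≠ 0 ∧ Q u = 0 ∧ Q v = 0 ∧ polar Q u v = 0 ∧
      ∃ T₁ T₂ : V ≃ₗ[F] V, T₁ ∈ O Q ∧ T₂ ∈ O Q ∧ (∀ (k : E) y, T₁ (k • y) = k • T₁ y) ∧
        (∀ (k : E) y, T₂ (k • y) = k • T₂ y) ∧ (T₁ * T₂ * T₁⁻¹ * T₂⁻¹) u = -u ∧ (T₁ * T₂ * T₁⁻¹ * T₂⁻¹) v = v := by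
  obtain ⟨QE, hQE, hval, hpol⟩ := exists_kform h2 hQ hself
  have hfinE : FiniteDimensional F E := inferInstance
  have hfinV : FiniteDimensional E V := FiniteDimensional.right F E V
  have hmul : finrank F E * finrank E V = finrank F V := Module.finrank_mul_finrank F E V
  have hdE : 3 ≤ finrank E V := by
    by_contra hcon
    have h4 : finrank E V ≤ 2 := by omega
    have h5 := Nat.mul_le_mul_left (finrank F E) h4
    rw [hmul] at h5
    omega
  have h2E : (2 : E) ≠ 0 := by
    intro h
    apply h2
    have h3 : algebraMap F E 2 = 0 := by rw [map_ofNat]; exact h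
    exact (map_eq_zero_iff _ (algebraMap F E).injective).1 h3
  obtain ⟨u₀, w, huw, hval0, hw⟩ := exists_pair hQE hdE
  have hu₀ : QE u₀ ≠ 0 := by rw [hval0]; exact hw
  have hwu : polar QE w u₀ = 0 := polar_zero_of_comm huw
  have hsub : QE (u₀ - w) ≠ 0 := by
    rw [sub_eq_add_neg, Q_add, QuadraticMap.map_neg, polar_neg_right, huw, neg_zero, add_zero, hval0, ← two_mul]
    exact mul_ne_zero h2E hw
  -- restriction of isometries
  have hres : ∀ T : V ≃ₗ[E] V, T ∈ O QE → T.restrictScalars F ∈ O Q := by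
    intro T hT y
    show Q (T y) = Q y
    rw [hval, hval, hT y]
  -- the vector `u`
  have finr : ∀ W : Submodule E V, 1 ≤ finrank E W → 3 ≤ finrank F (W.restrictScalars F) := by
    intro W hW
    have h4 : finrank F E * finrank E W = finrank F W := Module.finrank_mul_finrank F E W
    have h5 := Nat.mul_le_mul_left (finrank F E) hW
    have h6 : finrank F (W.restrictScalars F) = finrank F W := rfl
    omega
  have hu0 : u₀ ≠ 0 := by
    rintro rfl
    exact hu₀ (QuadraticMap.map_zero _)
  obtain ⟨u, huW, hune, hu⟩ := exists_sing_mem (Q := Q) ((Submodule.span E {u₀}).restrictScalars F)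
    (finr _ (by rw [finrank_span_singleton hu0]))
  obtain ⟨κ, rfl⟩ := Submodule.mem_span_singleton.1 (show u ∈ Submodule.span E {u₀} from huW)
  -- the vector `v`
  let f : V →ₗ[E] (Fin 2 → E) := LinearMap.pi ![polarBilin QE u₀, polarBilin QE w]
  have hker : 1 ≤ finrank E (LinearMap.ker f) := by
    have h4 := LinearMap.finrank_range_add_finrank_ker f
    have h5 : finrank E (LinearMap.range f) ≤ 2 := by
      refine le_trans (Submodule.finrank_le _) ?_
      rw [Module.finrank_fin_fun]
    omega
  obtain ⟨v, hvW, hvne, hv⟩ := exists_sing_mem (Q := Q) ((LinearMap.ker f).restrictScalars F) (finr _ hker)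
  have hvk : f v = 0 := LinearMap.mem_ker.1 hvW
  have huv : polar QE u₀ v = 0 := by
    have := congrFun hvk 0
    simpa [f] using this
  have hwv : polar QE w v = 0 := by
    have := congrFun hvk 1
    simpa [f] using this
  set T₁ := refl QE u₀ hu₀ with hT₁
  set T₂ := refl QE (u₀ - w) hsub with hT₂
  have hT₂u : T₂ u₀ = w := refl_sub_apply hval0.symm hsub
  have hconj : T₁ * T₂ * T₁⁻¹ * T₂⁻¹ = refl QE u₀ hu₀ * refl QE w hw := by
    have h4 : T₂ * T₁ * T₂⁻¹ = refl QE w hw := by
      have hq : QE (T₂ u₀) ≠ 0 := by rw [hT₂u]; exact hw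
      rw [hT₁, refl_conj (refl_mem_O hsub) hu₀ hq]
      congr 1
    have h5 : T₁⁻¹ = T₁ := refl_inv hu₀
    rw [h5, ← h4, ← hT₁]
    group
  refine ⟨κ • u₀, v, hune, hvne, hu, hv, ?_, T₁.restrictScalars F, T₂.restrictScalars F, hres _ (refl_mem_O hu₀),
    hres _ (refl_mem_O hsub), fun k y => map_smul T₁ k y, fun k y => map_smul T₂ k y, ?_, ?_⟩
  · rw [hpol, polar_smul_left, huv, smul_zero, map_zero]
  · show (T₁ * T₂ * T₁⁻¹ * T₂⁻¹) (κ • u₀) = -(κ • u₀)
    rw [hconj]
    show refl QE u₀ hu₀ (refl QE w hw (κ • u₀)) = _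
    rw [map_smul, map_smul, refl_apply hw, hwu, mul_zero, zero_smul, sub_zero, refl_apply hu₀, polar_self',
      ← mul_assoc, mul_comm (QE u₀)⁻¹ 2, mul_assoc, inv_mul_cancel₀ hu₀]
    module
  · show (T₁ * T₂ * T₁⁻¹ * T₂⁻¹) v = v
    rw [hconj]
    show refl QE u₀ hu₀ (refl QE w hw v) = _
    rw [refl_apply hw, hwv, mul_zero, zero_smul, sub_zero, refl_apply hu₀, huv, mul_zero, zero_smul, sub_zero]

end ext

section rank

variable {F E V : Type*} [Field F] [Field E] [Algebra F E] [AddCommGroup V] [Module F V]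
  [Module E V] [IsScalarTower F E V] [FiniteDimensional F V]

/-- **Semilinear maps of small rank.** -/
theorem eq_one_of_rank {g : V →ₗ[F] V} (hsemi : ∀ k : E, ∃ k' : E, ∀ y, g (k • y) = k' • g y)
    (hodd : Odd (finrank F E)) (h3 : 3 ≤ finrank F E) (h9 : 9 ≤ finrank F V)
    (hrk : finrank F (LinearMap.range (g - 1)) ≤ 4) (hev : Even (finrank F (LinearMap.range (g - 1)))) : g = 1 := by
  have hrn := LinearMap.finrank_range_add_finrank_ker (g - 1)
  have hlin : ∀ (k : E) y, g (k • y) = k • g y := by
    by_contra hcon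
    push Not at hcon
    obtain ⟨k, y₀, hy₀⟩ := hcon
    obtain ⟨k', hk'⟩ := hsemi k
    have hkk : k ≠ k' := by
      rintro rfl
      exact hy₀ (hk' y₀)
    have hk0 : k ≠ 0 := by
      rintro rfl
      apply hy₀
      rw [zero_smul, zero_smul, map_zero]
    let φ : V ≃ₗ[F] V := (LinearEquiv.smulOfNeZero E V k hk0).restrictScalars F
    have hφ : ∀ y, φ y = k • y := fun y => rfl
    set C := LinearMap.ker (g - 1) with hC
    have hmemC : ∀ y, y ∈ C ↔ g y = y := by
      intro y
      rw [hC, LinearMap.mem_ker, LinearMap.sub_apply, Module.End.one_apply, sub_eq_zero]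
    have hdisj : C ⊓ C.comap (φ : V →ₗ[F] V) = ⊥ := by
      rw [Submodule.eq_bot_iff]
      rintro y ⟨h1, h2⟩
      rw [SetLike.mem_coe, hmemC] at h1
      rw [SetLike.mem_coe, Submodule.mem_comap, hmemC] at h2
      have h4 : g (k • y) = k • y := h2
      rw [hk', h1] at h4
      have h5 : (k - k') • y = 0 := by rw [sub_smul, h4, sub_self]
      exact (smul_eq_zero.1 h5).resolve_left (sub_ne_zero.2 hkk)
    have hcm : finrank F (C.comap (φ : V →ₗ[F] V)) = finrank F C := by
      have h4 : C.comap (φ : V →ₗ[F] V) = C.map (φ.symm : V →ₗ[F] V) := (Submodule.map_equiv_eq_comap_symm φ.symm C).symm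
      rw [h4]
      exact LinearEquiv.finrank_map_eq φ.symm C
    have h5 := Submodule.finrank_sup_add_finrank_inf_eq C (C.comap (φ : V →ₗ[F] V))
    rw [hdisj, finrank_bot, hcm] at h5
    have h6 := Submodule.finrank_le (C ⊔ C.comap (φ : V →ₗ[F] V))
    omega
  -- linear
  let N : V →ₗ[E] V :=
    { toFun := fun y => g y - y
      map_add' := fun x y => by rw [map_add]; abel
      map_smul' := fun k y => by rw [hlin, RingHom.id_apply, smul_sub] }
  have hN : (LinearMap.range N).restrictScalars F = LinearMap.range (g - 1) := by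
    ext y
    constructor
    · rintro ⟨z, rfl⟩
      exact ⟨z, rfl⟩
    · rintro ⟨z, rfl⟩
      exact ⟨z, rfl⟩
  have hmul : finrank F E * finrank E (LinearMap.range N) = finrank F (LinearMap.range N) :=
    Module.finrank_mul_finrank F E _
  have h4 : finrank F (LinearMap.range (g - 1)) = finrank F (LinearMap.range N) := by rw [← hN]; rfl
  rw [h4] at hrk hev
  have h5 : finrank E (LinearMap.range N) ≤ 1 := by
    by_contra hcon
    have h6 : 2 ≤ finrank E (LinearMap.range N) := by omega
    have h7 := Nat.mul_le_mul_left (finrank F E) h6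
    omega
  have h6 : finrank F (LinearMap.range N) = 0 := by
    rcases Nat.le_one_iff_eq_zero_or_eq_one.1 h5 with h7 | h7
    · rw [← hmul, h7, mul_zero]
    · rw [h7, mul_one] at hmul
      rw [← hmul] at hev
      exact absurd hodd (Nat.not_odd_iff_even.2 hev)
  rw [← h4] at h6
  have h7 : LinearMap.range (g - 1) = ⊥ := Submodule.finrank_eq_zero.1 h6
  rw [LinearMap.range_eq_bot, sub_eq_zero] at h7
  exact h7

end rank

end Cfsg.Agent.H408.EP
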