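import Cfsg.Agent.H408.EP.KForm
import Cfsg.Agent.H458.EP.Norm
import Cfsg.Agent.H778.EP.OmAsm
import Cfsg.Agent.ClassicalGeometry.OrthDickson
import Cfsg.Agent.H925.OrthBasic

/-!
# S3499: the row Om-C3, `q` odd, extension fields of degree `r ≥ 3`, `n ≥ 3 r` (helper408)
-/

set_option autoImplicit false
set_option linter.unusedSectionVars false

namespace Cfsg.Agent.H408.EP

open QuadraticMap Matrix Module
open Cfsg.Agent.LieClassical.OrthCore Cfsg.Agent.LieClassical.OrthTrans Cfsg.Agent.LieClassical.OrthFinite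
open Cfsg.Agent.H284 Cfsg.Agent.H419.EP Cfsg.Agent.H925 Cfsg.Agent.H458.EP
open Cfsg.Agent.ClassicalGeometry.OrthDickson Cfsg.Agent.ClassicalGeometry.OrthCharTwo

universe u

variable {ι : Type} [Fintype ι] [DecidableEq ι] {F : Type u} [Field F] {Qf : (ι → F) → F}

/-- `(g - 1) V` has even dimension for `g ∈ Ω`. -/
theorem even_rank (hQ : Cfsg.Geo.IsNondegenerateQuadraticForm Qf) (hn : Fintype.card ι ≠ 4) {g : GL ι F}
    (hg : g ∈ Cfsg.Geo.omegaGL Qf) : Even (finrank F (LinearMap.range (Matrix.mulVecLin (g : Matrix ι ι F) - 1))) := by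
  obtain ⟨g', hg', rfl⟩ := hg
  have hnd : (polarBilin (qf hQ)).Nondegenerate := by
    refine ⟨fun x hx => nondeg_qf hQ x hx, fun x hx => nondeg_qf hQ x fun y => ?_⟩
    rw [polar_comm]
    exact hx y
  have h1 : (-1 : ℤˣ) ^ (finrank F (fixSp g') + Fintype.card ι) = 1 :=
    dsign_eq_one_of_mem_commutator (qf hQ) hnd (Or.inr hn) g' hg'
  have h2 : fixSp g' = LinearMap.ker (Matrix.mulVecLin (((isometryGroup F Qf).subtype g' : GL ι F) : Matrix ι ι F) - 1) := by
    ext x
    rw [mem_fixSp, LinearMap.mem_ker, LinearMap.sub_apply, Module.End.one_apply, sub_eq_zero]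
    rfl
  rw [h2] at h1
  have h3 := LinearMap.finrank_range_add_finrank_ker
    (Matrix.mulVecLin (((isometryGroup F Qf).subtype g' : GL ι F) : Matrix ι ι F) - 1)
  rw [Module.finrank_fintype_fun_eq_card] at h3
  by_contra hne
  rw [Nat.not_even_iff_odd] at hne
  have h4 : Odd (finrank F (LinearMap.ker (Matrix.mulVecLin (((isometryGroup F Qf).subtype g' : GL ι F) : Matrix ι ι F) - 1)) +
      Fintype.card ι) := by
    rw [Nat.odd_iff] at hne ⊢
    omega
  rw [h4.neg_one_pow] at h1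
  exact absurd h1 (by decide)

/-- **The field.** -/
theorem exists_field [Finite F] [Nonempty ι] {r : ℕ} {K : Subalgebra F (Matrix ι ι F)} (hK : Cfsg.Geo.IsFieldSubalgebra r K) :
    ∃ (E : Type u) (_ : Field E) (_ : Finite E) (_ : Algebra F E) (_ : Module E (ι → F)) (_ : IsScalarTower F E (ι → F)),
      finrank F E = r ∧ (∀ k : E, ∃ M ∈ K, ∀ v : ι → F, k • v = M *ᵥ v) ∧
        ∀ M ∈ K, ∃ k : E, ∀ v : ι → F, k • v = M *ᵥ v := by
  have hF : IsField K :=
    { exists_pair_ne := ⟨0, 1, fun h => one_ne_zero (congrArg Subtype.val h).symm⟩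
      mul_comm := fun x y => Subtype.ext (hK.comm _ x.2 _ y.2)
      mul_inv_cancel := fun {a} ha => by
        obtain ⟨y, hy, h⟩ := hK.inv a.1 a.2 fun h => ha (Subtype.ext h)
        exact ⟨⟨y, hy⟩, Subtype.ext h⟩ }
  let mod : @Module K (ι → F) (hF.toField).toSemifield.toCommSemiring.toSemiring _ :=
    { smul := fun k v => (k : Matrix ι ι F) *ᵥ v
      one_smul := fun v => Matrix.one_mulVec v
      mul_smul := fun a b v => (Matrix.mulVec_mulVec _ _ _).symm
      smul_zero := fun a => Matrix.mulVec_zero _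
      smul_add := fun a v w => Matrix.mulVec_add _ _ _
      add_smul := fun a b v => Matrix.add_mulVec _ _ _
      zero_smul := fun v => Matrix.zero_mulVec _ }
  refine ⟨K, hF.toField, inferInstance, (inferInstance : Algebra F K), mod, ⟨fun a k v => ?_⟩, hK.finrank_eq, fun k => ⟨k.1, k.2, fun v => rfl⟩,
    fun M hM => ⟨⟨M, hM⟩, fun v => rfl⟩⟩
  exact Matrix.smul_mulVec a (k : Matrix ι ι F) v

theorem mulVec_inv {g : GL ι F} {v w : ι → F} (h : (g : Matrix ι ι F) *ᵥ v = w) :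
    ((g⁻¹ : GL ι F) : Matrix ι ι F) *ᵥ w = v := by
  rw [← h, Matrix.mulVec_mulVec, ← Units.val_mul, inv_mul_cancel, Units.val_one, Matrix.one_mulVec]

theorem gl_ext {g h : GL ι F} (e : ∀ v, (g : Matrix ι ι F) *ᵥ v = (h : Matrix ι ι F) *ᵥ v) : g = h :=
  Units.ext (Matrix.mulVec_injective (funext e))

/-- **Row Om-C3, `q` odd, `r ≥ 3`, `n ≥ 3 r`.** -/
theorem omC3O : Cfsg.Agent.H778.EP.OmRow fun F _ _ ι _ _ Qf H =>
    ∃ (r : ℕ) (K : Subalgebra F (Matrix ι ι F)), r.Prime ∧ 3 ≤ r ∧ (2 : F) ≠ 0 ∧ 3 * r ≤ Fintype.card ι ∧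
      Cfsg.Geo.IsFieldSubalgebra r K ∧ Cfsg.Geo.IsSelfAdjointFor (QuadraticMap.polar Qf) K ∧
      H ≤ Cfsg.Geo.subalgebraNormalizer K := by
  intro Q _ _ _ A Γ h F _ _ ι _ _ Qf m h7 hQ hC
  obtain ⟨r, K, hr, hr3, h2, hdim, hK, hself, hA⟩ := hC
  have hn5 : 5 ≤ Fintype.card ι := by omega
  have hne : Nonempty ι := Fintype.card_pos_iff.1 (by omega)
  obtain ⟨E, _, _, _, _, _, hrE, hEK, hKE⟩ := exists_field hK
  have hND := nondeg_qf hQ
  have hfinrank : finrank F (ι → F) = Fintype.card ι := Module.finrank_fintype_fun_eq_card F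
  have hodd : Odd r := hr.odd_of_ne_two (by omega)
  -- the data
  obtain ⟨u, v, hu0, hv0, hu, hv, huv, T₁, T₂, hT₁, hT₂, hlin₁, hlin₂, hhu, hhv⟩ :=
    exists_data (F := F) (E := E) (V := ι → F) (Q := qf hQ) h2 hND (by
      intro k x y
      obtain ⟨M, hM, hk⟩ := hEK k
      rw [hk, hk]
      exact hself M hM x y) (by rw [hrE]; exact hr3) (by rw [hrE, hfinrank]; exact hdim)
  have hvu : polar (qf hQ) v u = 0 := polar_zero_of_comm huv
  have huu : polar (qf hQ) u u = 0 := polar_self_of_sing hu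
  have hvv : polar (qf hQ) v v = 0 := polar_self_of_sing hv
  have hmul : ∀ (g k : GL ι F) (w : ι → F), ((g * k : GL ι F) : Matrix ι ι F) *ᵥ w =
      (g : Matrix ι ι F) *ᵥ ((k : Matrix ι ι F) *ᵥ w) := by
    intro g k w
    rw [Units.val_mul, Matrix.mulVec_mulVec]
  -- the long root element
  obtain ⟨x, hxS, hx⟩ := exists_siegel hQ hn5 (u := u) (w := v) hu huv
  have hx' : ∀ w, (x : Matrix ι ι F) *ᵥ w = w + polar (qf hQ) u w • v - polar (qf hQ) v w • u := by
    intro w
    rw [hx, show Qf v = 0 from hv, zero_mul, zero_smul, sub_zero]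
    rfl
  -- elements of small rank
  have small : ∀ g : GL ι F, g ∈ Cfsg.Geo.omegaGL Qf → g ∈ Cfsg.Geo.subalgebraNormalizer K →
      finrank F (LinearMap.range (Matrix.mulVecLin (g : Matrix ι ι F) - 1)) ≤ 4 → g = 1 := by
    intro g hgS hgK hrk
    have h1 := eq_one_of_rank (F := F) (E := E) (V := ι → F) (g := Matrix.mulVecLin (g : Matrix ι ι F)) (by
      intro k
      obtain ⟨M, hM, hk⟩ := hEK k
      obtain ⟨k', hk'⟩ := hKE _ ((hgK M).1 hM)
      refine ⟨k', fun y => ?_⟩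
      rw [hk, hk', Matrix.mulVecLin_apply, Matrix.mulVecLin_apply, Matrix.mulVec_mulVec, Matrix.mulVec_mulVec]
      congr 1
      rw [mul_assoc, ← Units.val_mul, inv_mul_cancel, Units.val_one, mul_one]) (by rw [hrE]; exact hodd) (by
      rw [hrE]; exact hr3) (by rw [hfinrank]; omega) hrk (even_rank hQ (by omega) hgS)
    apply gl_ext
    intro w
    have h3 := LinearMap.congr_fun h1 w
    rw [Matrix.mulVecLin_apply] at h3
    rw [h3, Units.val_one, Matrix.one_mulVec]
    rfl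
  -- `x` has rank two
  have hxne : ∀ c : F, c ≠ 0 → ¬ ∀ w, c • (polar (qf hQ) u w • v - polar (qf hQ) v w • u) = 0 := by
    intro c hc hcon
    obtain ⟨y, hy⟩ := hND.exists_polar_eq hu0 1
    have h1 := (smul_eq_zero.1 (hcon y)).resolve_left hc
    rw [hy, one_smul, sub_eq_zero] at h1
    have h3 : v = -v := by
      have h4 : (T₁ * T₂ * T₁⁻¹ * T₂⁻¹) v = -v := by
        conv_lhs => rw [h1, map_smul, hhu, smul_neg, ← h1]
      rw [hhv] at h4
      exact h4
    have h4 : (2 : F) • v = 0 := by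
      rw [two_smul]
      nth_rewrite 2 [h3]
      exact add_neg_cancel v
    rcases smul_eq_zero.1 h4 with h5 | h5
    · exact h2 h5
    · exact hv0 h5
  have hxr : LinearMap.range (Matrix.mulVecLin (x : Matrix ι ι F) - 1) ≤ Submodule.span F {u, v} := by
    rintro _ ⟨w, rfl⟩
    rw [LinearMap.sub_apply, Module.End.one_apply, Matrix.mulVecLin_apply, hx', Submodule.mem_span_pair]
    exact ⟨-polar (qf hQ) v w, polar (qf hQ) u w, by module⟩
  have hspan : finrank F (Submodule.span F ({u, v} : Set (ι → F))) ≤ 2 := by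
    classical
    have h1 := finrank_span_finset_le_card (R := F) (M := ι → F) ({u, v} : Finset (ι → F))
    rw [Finset.coe_pair] at h1
    exact le_trans h1 Finset.card_le_two
  have hx1 : x ≠ 1 := by
    rintro rfl
    apply hxne 1 one_ne_zero
    intro w
    have h1 := hx' w
    rw [Units.val_one, Matrix.one_mulVec] at h1
    rw [one_smul]
    have h3 : w + (polar (qf hQ) u w • v - polar (qf hQ) v w • u) = w := by
      rw [← add_sub_assoc]; exact h1.symm
    exact add_eq_left.1 h3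
  have hxK : x ∉ Cfsg.Geo.subalgebraNormalizer K := fun hcon => hx1 (small x hxS hcon (by
    have := Submodule.finrank_mono hxr
    omega))
  have hhat : m.hat A = Cfsg.Geo.subalgebraNormalizer K ⊓ Cfsg.Geo.omegaGL Qf :=
    hat_eq m h.max hA fun hcon => hxK (hcon hxS)
  have hmem : ∀ g : GL ι F, g ∈ m.hat A ↔ g ∈ Cfsg.Geo.subalgebraNormalizer K ∧ g ∈ Cfsg.Geo.omegaGL Qf := by
    intro g
    rw [hhat, Subgroup.mem_inf]
  have hxA : x ∉ m.hat A := fun hcon => hxK ((hmem x).1 hcon).1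
  -- the two point stabiliser is the centraliser of `x`
  have hcomm : ∀ g : GL ι F, g ∈ m.hat A → g ∈ cj x (m.hat A) → x * g = g * x := by
    intro g hg hgx
    rw [mem_cj] at hgx
    have h1 : g⁻¹ * (x⁻¹ * g * x) ∈ m.hat A := mul_mem (inv_mem hg) hgx
    have h3 : g⁻¹ * (x⁻¹ * g * x) = 1 := by
      refine small _ ((hmem _).1 h1).2 ((hmem _).1 h1).1 ?_
      -- the range
      have h4 : LinearMap.range (Matrix.mulVecLin ((g⁻¹ * (x⁻¹ * g * x) : GL ι F) : Matrix ι ι F) - 1) ≤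
          Submodule.map (Matrix.mulVecLin ((g⁻¹ * x⁻¹ * g : GL ι F) : Matrix ι ι F)) (Submodule.span F {u, v}) ⊔
          Submodule.map (Matrix.mulVecLin ((g⁻¹ * x⁻¹ : GL ι F) : Matrix ι ι F)) (Submodule.span F {u, v}) := by
        rintro _ ⟨w, rfl⟩
        rw [Submodule.mem_sup]
        refine ⟨_, ⟨_, hxr ⟨w, rfl⟩, rfl⟩, _, ⟨_, Submodule.neg_mem _ (hxr ⟨(g : Matrix ι ι F) *ᵥ w, rfl⟩), rfl⟩, ?_⟩
        simp only [LinearMap.sub_apply, Module.End.one_apply, Matrix.mulVecLin_apply, Matrix.mulVec_neg, Matrix.mulVec_sub,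
          hmul]
        have h5 : ((x⁻¹ : GL ι F) : Matrix ι ι F) *ᵥ ((x : Matrix ι ι F) *ᵥ ((g : Matrix ι ι F) *ᵥ w)) =
            (g : Matrix ι ι F) *ᵥ w := mulVec_inv rfl
        rw [h5, mulVec_inv (g := g) rfl]
        abel
      have h5 := Submodule.finrank_mono h4
      have h6 := Submodule.finrank_add_le_finrank_add_finrank
        (Submodule.map (Matrix.mulVecLin ((g⁻¹ * x⁻¹ * g : GL ι F) : Matrix ι ι F)) (Submodule.span F {u, v}))
        (Submodule.map (Matrix.mulVecLin ((g⁻¹ * x⁻¹ : GL ι F) : Matrix ι ι F)) (Submodule.span F {u, v}))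
      have h7 := Submodule.finrank_map_le (Matrix.mulVecLin ((g⁻¹ * x⁻¹ * g : GL ι F) : Matrix ι ι F))
        (Submodule.span F {u, v})
      have h8 := Submodule.finrank_map_le (Matrix.mulVecLin ((g⁻¹ * x⁻¹ : GL ι F) : Matrix ι ι F))
        (Submodule.span F {u, v})
      omega
    have h4 : x⁻¹ * g * x = g := by
      have h5 : g * (g⁻¹ * (x⁻¹ * g * x)) = g * 1 := by rw [h3]
      rwa [mul_inv_cancel_left, mul_one] at h5
    calc x * g = x * (x⁻¹ * g * x) := by rw [h4]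
      _ = g * x := by group
  -- the element `k` inverting `x`
  let t₁ : GL ι F := (glEquiv ι F).symm T₁
  let t₂ : GL ι F := (glEquiv ι F).symm T₂
  have ht₁ : ∀ w, (t₁ : Matrix ι ι F) *ᵥ w = T₁ w := fun w => by
    rw [← glEquiv_apply, MulEquiv.apply_symm_apply]
  have ht₂ : ∀ w, (t₂ : Matrix ι ι F) *ᵥ w = T₂ w := fun w => by
    rw [← glEquiv_apply, MulEquiv.apply_symm_apply]
  have hiso₁ : t₁ ∈ Cfsg.isometryGroup F Qf := mem_iso_iff.2 fun w => by rw [ht₁]; exact hT₁ w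
  have hiso₂ : t₂ ∈ Cfsg.isometryGroup F Qf := mem_iso_iff.2 fun w => by rw [ht₂]; exact hT₂ w
  have hnorm : ∀ t : GL ι F, (∀ (k : E) w, (t : Matrix ι ι F) *ᵥ (k • w) = k • ((t : Matrix ι ι F) *ᵥ w)) →
      t ∈ Cfsg.Geo.subalgebraNormalizer K := by
    intro t ht
    have hc : ∀ M ∈ K, (t : Matrix ι ι F) * M = M * (t : Matrix ι ι F) := by
      intro M hM
      obtain ⟨k, hk⟩ := hKE M hM
      apply Matrix.mulVec_injective
      funext w
      rw [← Matrix.mulVec_mulVec, ← Matrix.mulVec_mulVec, ← hk, ht, hk]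
    intro M
    have hti : (t : Matrix ι ι F) * ((t⁻¹ : GL ι F) : Matrix ι ι F) = 1 := by
      rw [← Units.val_mul, mul_inv_cancel, Units.val_one]
    have hti' : ((t⁻¹ : GL ι F) : Matrix ι ι F) * (t : Matrix ι ι F) = 1 := by
      rw [← Units.val_mul, inv_mul_cancel, Units.val_one]
    constructor
    · intro hM
      rw [hc M hM, mul_assoc, hti, mul_one]
      exact hM
    · intro hM
      have h1 := hc _ hM
      have h3 : M = (t : Matrix ι ι F) * M * ((t⁻¹ : GL ι F) : Matrix ι ι F) := by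
        have h4 : (t : Matrix ι ι F) * M * ((t⁻¹ : GL ι F) : Matrix ι ι F) * (t : Matrix ι ι F) =
            (t : Matrix ι ι F) * M := by rw [mul_assoc, hti', mul_one]
        rw [h4] at h1
        calc M = ((t⁻¹ : GL ι F) : Matrix ι ι F) * ((t : Matrix ι ι F) * M) := by
              rw [← mul_assoc, hti', one_mul]
          _ = ((t⁻¹ : GL ι F) : Matrix ι ι F) * ((t : Matrix ι ι F) * ((t : Matrix ι ι F) * M * ((t⁻¹ : GL ι F) : Matrix ι ι F))) := by
              rw [h1]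
          _ = _ := by rw [← mul_assoc, hti', one_mul]
      rw [h3]
      exact hM
  let k : GL ι F := t₁ * t₂ * t₁⁻¹ * t₂⁻¹
  have hkS : k ∈ Cfsg.Geo.omegaGL Qf := commutator_mem_omegaGL hiso₁ hiso₂
  have hn₁ : t₁ ∈ Cfsg.Geo.subalgebraNormalizer K := hnorm t₁ fun k w => by rw [ht₁, ht₁, hlin₁]
  have hn₂ : t₂ ∈ Cfsg.Geo.subalgebraNormalizer K := hnorm t₂ fun k w => by rw [ht₂, ht₂, hlin₂]
  have hkK : k ∈ Cfsg.Geo.subalgebraNormalizer K := mul_mem (mul_mem (mul_mem hn₁ hn₂) (inv_mem hn₁)) (inv_mem hn₂)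
  have hkA : k ∈ m.hat A := (hmem k).2 ⟨hkK, hkS⟩
  have hkw : ∀ w, (k : Matrix ι ι F) *ᵥ w = (T₁ * T₂ * T₁⁻¹ * T₂⁻¹) w := by
    intro w
    have h1 : glEquiv ι F k = T₁ * T₂ * T₁⁻¹ * T₂⁻¹ := by
      simp only [k, t₁, t₂, map_mul, map_inv, MulEquiv.apply_symm_apply]
    rw [← h1, glEquiv_apply]
  clear_value k
  have hku : (k : Matrix ι ι F) *ᵥ u = -u := by rw [hkw, hhu]
  have hkv : (k : Matrix ι ι F) *ᵥ v = v := by rw [hkw, hhv]
  have hkiso : ∀ w w', polar (qf hQ) ((k : Matrix ι ι F) *ᵥ w) ((k : Matrix ι ι F) *ᵥ w') = polar (qf hQ) w w' := by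
    intro w w'
    have hiso := mem_iso_iff.1 (omegaGL_le_iso Qf hkS)
    show Qf (_ + _) - Qf _ - Qf _ = Qf (_ + _) - Qf _ - Qf _
    rw [← Matrix.mulVec_add, hiso, hiso, hiso]
  have hpu : ∀ w, polar (qf hQ) u ((k : Matrix ι ι F) *ᵥ w) = -polar (qf hQ) u w := by
    intro w
    have h1 := hkiso u w
    rw [hku, polar_neg_left] at h1
    rw [← h1, neg_neg]
  have hpv : ∀ w, polar (qf hQ) v ((k : Matrix ι ι F) *ᵥ w) = polar (qf hQ) v w := by
    intro w
    have h1 := hkiso v w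
    rwa [hkv] at h1
  have hxkx : x * k * x = k := by
    apply gl_ext
    intro w
    rw [hmul, hmul, hx' w, Matrix.mulVec_sub, Matrix.mulVec_add, Matrix.mulVec_smul, Matrix.mulVec_smul, hku, hkv, hx',
      polar_sub_right, polar_sub_right, polar_add_right, polar_add_right, polar_smul_right, polar_smul_right,
      polar_smul_right, polar_smul_right, polar_neg_right, polar_neg_right, hpu, hpv, huu, hvv, huv, hvu]
    simp only [smul_zero, neg_zero, add_zero, sub_zero]
    module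
  have key : k ∈ cj x (m.hat A) := kill_norm h m hxS hxA hkA fun g hg hgx => by
    have h1 := hcomm g hg hgx
    have h3 : x * (k * g * k⁻¹) = (k * g * k⁻¹) * x := by
      -- `x k g k⁻¹ = k x⁻¹ g k⁻¹ = k g x⁻¹ k⁻¹ = k g k⁻¹ x`
      have e1 : x * k = k * x⁻¹ := by
        rw [eq_mul_inv_iff_mul_eq]; exact hxkx
      have e2 : x⁻¹ * g = g * x⁻¹ := by
        rw [inv_mul_eq_iff_eq_mul, ← mul_assoc, h1, mul_inv_cancel_right]
      have e3 : x⁻¹ * k⁻¹ = k⁻¹ * x := by
        have e4 : k⁻¹ * x = (x⁻¹ * k)⁻¹ := by rw [_root_.mul_inv_rev, inv_inv]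
        have e5 : x⁻¹ * k⁻¹ = (k * x)⁻¹ := by rw [_root_.mul_inv_rev]
        rw [e4, e5]
        congr 1
        rw [eq_inv_mul_iff_mul_eq, ← mul_assoc]
        exact hxkx
      calc x * (k * g * k⁻¹) = (x * k) * g * k⁻¹ := by group
        _ = k * (x⁻¹ * g) * k⁻¹ := by rw [e1]; group
        _ = k * g * (x⁻¹ * k⁻¹) := by rw [e2]; group
        _ = k * g * k⁻¹ * x := by rw [e3]; group
    rw [mem_cj]
    have h4 : x⁻¹ * (k * g * k⁻¹) * x = k * g * k⁻¹ := by
      rw [mul_assoc, ← h3, inv_mul_cancel_left]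
    rw [h4]
    exact mul_mem (mul_mem hkA hg) (inv_mem hkA)
  have h3 := hcomm k hkA key
  have h4 : x * x = 1 := by
    have h5 : k * (x * x) = k := by
      rw [← mul_assoc, ← h3]
      exact hxkx
    exact mul_eq_left.1 h5
  apply hxne 2 h2
  intro w
  have h5 : (x : Matrix ι ι F) *ᵥ ((x : Matrix ι ι F) *ᵥ w) = w := by
    rw [← hmul, h4, Units.val_one, Matrix.one_mulVec]
  rw [hx' w, hx', polar_sub_right, polar_sub_right, polar_add_right, polar_add_right, polar_smul_right, polar_smul_right,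
      polar_smul_right, polar_smul_right, huu, hvv, huv, hvu] at h5
  simp only [smul_zero, add_zero, sub_zero] at h5
  have h6 : (2 : F) • (polar (qf hQ) u w • v - polar (qf hQ) v w • u) =
      (w + polar (qf hQ) u w • v - polar (qf hQ) v w • u + polar (qf hQ) u w • v - polar (qf hQ) v w • u) - w := by
    module
  rw [h6, h5, sub_self]

end Cfsg.Agent.H408.EP
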