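import Cfsg.Agent.H408.EP.KFormTwo
import Cfsg.Agent.H408.EP.OmC3O

/-!
# S3499: the row Om-C3, `q` even, extension fields of degree `r ≥ 3`, `n ≥ 3 r` (helper408)

`core` is the common kill: `x ∈ Ω` of rank `≤ 2` with `x² ≠ 1` and `k ∈ Ω` normalising the field with `x k x = k`.
-/

set_option autoImplicit false
set_option linter.unusedSectionVars false

namespace Cfsg.Agent.H408.EP

open QuadraticMap Matrix Module
open Cfsg.Agent.LieClassical.OrthCore Cfsg.Agent.LieClassical.OrthTrans Cfsg.Agent.LieClassical.OrthFinite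
open Cfsg.Agent.H284 Cfsg.Agent.H419.EP Cfsg.Agent.H925 Cfsg.Agent.H458.EP
open Cfsg.Agent.ClassicalGeometry.OrthDickson Cfsg.Agent.ClassicalGeometry.OrthCharTwo

/-- matrices commuting with the field normalise it -/
theorem mem_normalizer_of_comm {ι F : Type} [Fintype ι] [DecidableEq ι] [Field F] {K : Subalgebra F (Matrix ι ι F)}
    {t : GL ι F} (hc : ∀ M ∈ K, (t : Matrix ι ι F) * M = M * (t : Matrix ι ι F)) : t ∈ Cfsg.Geo.subalgebraNormalizer K := by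
  intro M
  have hti : (t : Matrix ι ι F) * ((t⁻¹ : GL ι F) : Matrix ι ι F) = 1 := by
    rw [← Units.val_mul, mul_inv_cancel, Units.val_one]
  have hti' : ((t⁻¹ : GL ι F) : Matrix ι ι F) * (t : Matrix ι ι F) = 1 := by
    rw [← Units.val_mul, inv_mul_cancel, Units.val_one]
  constructor
  · intro hM
    rw [hc M hM, mul_assoc, hti, mul_one]
    exact hM
  · intro hM
    have h1 := hc _ hM
    have h3 : M = (t : Matrix ι ι F) * M * ((t⁻¹ : GL ι F) : Matrix ι ι F) := by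
      have h4 : (t : Matrix ι ι F) * M * ((t⁻¹ : GL ι F) : Matrix ι ι F) * (t : Matrix ι ι F) =
          (t : Matrix ι ι F) * M := by rw [mul_assoc, hti', mul_one]
      rw [h4] at h1
      calc M = ((t⁻¹ : GL ι F) : Matrix ι ι F) * ((t : Matrix ι ι F) * M) := by
            rw [← mul_assoc, hti', one_mul]
        _ = ((t⁻¹ : GL ι F) : Matrix ι ι F) * ((t : Matrix ι ι F) * ((t : Matrix ι ι F) * M * ((t⁻¹ : GL ι F) : Matrix ι ι F))) := by
            rw [h1]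
        _ = _ := by rw [← mul_assoc, hti', one_mul]
    rw [h3]
    exact hM

/-- **The common kill.** -/
theorem core {Q : Type*} [Group Q] [Finite Q] {A : Subgroup Q} {Γ : Subgroup (MulAut Q)} (h : EPT A Γ) {F : Type} [Field F]
    [Fintype F] {ι : Type} [Fintype ι] [DecidableEq ι] {Qf : (ι → F) → F} (m : Model Q (Cfsg.Geo.omegaGL Qf))
    (hQ : Cfsg.Geo.IsNondegenerateQuadraticForm Qf) {r : ℕ} {K : Subalgebra F (Matrix ι ι F)} (hr : r.Prime)
    (hr3 : 3 ≤ r) (hdim : 3 * r ≤ Fintype.card ι) (hK : Cfsg.Geo.IsFieldSubalgebra r K)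
    (hA : m.hat A ≤ Cfsg.Geo.subalgebraNormalizer K) {x k : GL ι F} (hxS : x ∈ Cfsg.Geo.omegaGL Qf)
    (hkS : k ∈ Cfsg.Geo.omegaGL Qf) {u v : ι → F}
    (hxr : LinearMap.range (Matrix.mulVecLin (x : Matrix ι ι F) - 1) ≤ Submodule.span F {u, v})
    (hkK : k ∈ Cfsg.Geo.subalgebraNormalizer K) (hxkx : x * k * x = k) (hxx : x * x ≠ 1) : False := by
  have hne : Nonempty ι := Fintype.card_pos_iff.1 (by omega)
  obtain ⟨E, _, _, _, _, _, hrE, hEK, hKE⟩ := exists_field hK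
  have hfinrank : finrank F (ι → F) = Fintype.card ι := Module.finrank_fintype_fun_eq_card F
  have hodd : Odd r := hr.odd_of_ne_two (by omega)
  have hmul : ∀ (g k : GL ι F) (w : ι → F), ((g * k : GL ι F) : Matrix ι ι F) *ᵥ w =
      (g : Matrix ι ι F) *ᵥ ((k : Matrix ι ι F) *ᵥ w) := by
    intro g k w
    rw [Units.val_mul, Matrix.mulVec_mulVec]
  -- elements of small rank
  have small : ∀ g : GL ι F, g ∈ Cfsg.Geo.omegaGL Qf → g ∈ Cfsg.Geo.subalgebraNormalizer K →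
      finrank F (LinearMap.range (Matrix.mulVecLin (g : Matrix ι ι F) - 1)) ≤ 4 → g = 1 := by
    intro g hgS hgK hrk
    have h1 := eq_one_of_rank (F := F) (E := E) (V := ι → F) (g := Matrix.mulVecLin (g : Matrix ι ι F)) (by
      intro k
      obtain ⟨M, hM, hk⟩ := hEK k
      obtain ⟨k', hk'⟩ := hKE _ ((hgK M).1 hM)
      refine ⟨k', fun y => ?_⟩
      rw [hk, hk', Matrix.mulVecLin_apply, Matrix.mulVecLin_apply, Matrix.mulVec_mulVec, Matrix.mulVec_mulVec]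
      congr 1
      rw [mul_assoc, ← Units.val_mul, inv_mul_cancel, Units.val_one, mul_one]) (by rw [hrE]; exact hodd) (by
      rw [hrE]; exact hr3) (by rw [hfinrank]; omega) hrk (even_rank hQ (by omega) hgS)
    apply gl_ext
    intro w
    have h3 := LinearMap.congr_fun h1 w
    rw [Matrix.mulVecLin_apply] at h3
    rw [h3, Units.val_one, Matrix.one_mulVec]
    rfl
  have hspan : finrank F (Submodule.span F ({u, v} : Set (ι → F))) ≤ 2 := by
    classical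
    have h1 := finrank_span_finset_le_card (R := F) (M := ι → F) ({u, v} : Finset (ι → F))
    rw [Finset.coe_pair] at h1
    exact le_trans h1 Finset.card_le_two
  have hx1 : x ≠ 1 := by
    rintro rfl
    exact hxx (one_mul 1)
  have hxK : x ∉ Cfsg.Geo.subalgebraNormalizer K := fun hcon => hx1 (small x hxS hcon (by
    have := Submodule.finrank_mono hxr
    omega))
  have hhat : m.hat A = Cfsg.Geo.subalgebraNormalizer K ⊓ Cfsg.Geo.omegaGL Qf :=
    hat_eq m h.max hA fun hcon => hxK (hcon hxS)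
  have hmem : ∀ g : GL ι F, g ∈ m.hat A ↔ g ∈ Cfsg.Geo.subalgebraNormalizer K ∧ g ∈ Cfsg.Geo.omegaGL Qf := by
    intro g
    rw [hhat, Subgroup.mem_inf]
  have hxA : x ∉ m.hat A := fun hcon => hxK ((hmem x).1 hcon).1
  -- the two point stabiliser is the centraliser of `x`
  have hcomm : ∀ g : GL ι F, g ∈ m.hat A → g ∈ cj x (m.hat A) → x * g = g * x := by
    intro g hg hgx
    rw [mem_cj] at hgx
    have h1 : g⁻¹ * (x⁻¹ * g * x) ∈ m.hat A := mul_mem (inv_mem hg) hgx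
    have h3 : g⁻¹ * (x⁻¹ * g * x) = 1 := by
      refine small _ ((hmem _).1 h1).2 ((hmem _).1 h1).1 ?_
      -- the range
      have h4 : LinearMap.range (Matrix.mulVecLin ((g⁻¹ * (x⁻¹ * g * x) : GL ι F) : Matrix ι ι F) - 1) ≤
          Submodule.map (Matrix.mulVecLin ((g⁻¹ * x⁻¹ * g : GL ι F) : Matrix ι ι F)) (Submodule.span F {u, v}) ⊔
          Submodule.map (Matrix.mulVecLin ((g⁻¹ * x⁻¹ : GL ι F) : Matrix ι ι F)) (Submodule.span F {u, v}) := by
        rintro _ ⟨w, rfl⟩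
        rw [Submodule.mem_sup]
        refine ⟨_, ⟨_, hxr ⟨w, rfl⟩, rfl⟩, _, ⟨_, Submodule.neg_mem _ (hxr ⟨(g : Matrix ι ι F) *ᵥ w, rfl⟩), rfl⟩, ?_⟩
        simp only [LinearMap.sub_apply, Module.End.one_apply, Matrix.mulVecLin_apply, Matrix.mulVec_neg, Matrix.mulVec_sub,
          hmul]
        have h5 : ((x⁻¹ : GL ι F) : Matrix ι ι F) *ᵥ ((x : Matrix ι ι F) *ᵥ ((g : Matrix ι ι F) *ᵥ w)) =
            (g : Matrix ι ι F) *ᵥ w := mulVec_inv rfl
        rw [h5, mulVec_inv (g := g) rfl]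
        abel
      have h5 := Submodule.finrank_mono h4
      have h6 := Submodule.finrank_add_le_finrank_add_finrank
        (Submodule.map (Matrix.mulVecLin ((g⁻¹ * x⁻¹ * g : GL ι F) : Matrix ι ι F)) (Submodule.span F {u, v}))
        (Submodule.map (Matrix.mulVecLin ((g⁻¹ * x⁻¹ : GL ι F) : Matrix ι ι F)) (Submodule.span F {u, v}))
      have h7 := Submodule.finrank_map_le (Matrix.mulVecLin ((g⁻¹ * x⁻¹ * g : GL ι F) : Matrix ι ι F))
        (Submodule.span F {u, v})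
      have h8 := Submodule.finrank_map_le (Matrix.mulVecLin ((g⁻¹ * x⁻¹ : GL ι F) : Matrix ι ι F))
        (Submodule.span F {u, v})
      omega
    have h4 : x⁻¹ * g * x = g := by
      have h5 : g * (g⁻¹ * (x⁻¹ * g * x)) = g * 1 := by rw [h3]
      rwa [mul_inv_cancel_left, mul_one] at h5
    calc x * g = x * (x⁻¹ * g * x) := by rw [h4]
      _ = g * x := by group
  have hkA : k ∈ m.hat A := (hmem k).2 ⟨hkK, hkS⟩
  have key : k ∈ cj x (m.hat A) := kill_norm h m hxS hxA hkA fun g hg hgx => by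
    have h1 := hcomm g hg hgx
    have h3 : x * (k * g * k⁻¹) = (k * g * k⁻¹) * x := by
      have e1 : x * k = k * x⁻¹ := by
        rw [eq_mul_inv_iff_mul_eq]; exact hxkx
      have e2 : x⁻¹ * g = g * x⁻¹ := by
        rw [inv_mul_eq_iff_eq_mul, ← mul_assoc, h1, mul_inv_cancel_right]
      have e3 : x⁻¹ * k⁻¹ = k⁻¹ * x := by
        have e4 : k⁻¹ * x = (x⁻¹ * k)⁻¹ := by rw [_root_.mul_inv_rev, inv_inv]
        have e5 : x⁻¹ * k⁻¹ = (k * x)⁻¹ := by rw [_root_.mul_inv_rev]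
        rw [e4, e5]
        congr 1
        rw [eq_inv_mul_iff_mul_eq, ← mul_assoc]
        exact hxkx
      calc x * (k * g * k⁻¹) = (x * k) * g * k⁻¹ := by group
        _ = k * (x⁻¹ * g) * k⁻¹ := by rw [e1]; group
        _ = k * g * (x⁻¹ * k⁻¹) := by rw [e2]; group
        _ = k * g * k⁻¹ * x := by rw [e3]; group
    rw [mem_cj]
    have h4 : x⁻¹ * (k * g * k⁻¹) * x = k * g * k⁻¹ := by
      rw [mul_assoc, ← h3, inv_mul_cancel_left]
    rw [h4]
    exact mul_mem (mul_mem hkA hg) (inv_mem hkA)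
  have h3 := hcomm k hkA key
  apply hxx
  have h5 : k * (x * x) = k := by
    rw [← mul_assoc, ← h3]
    exact hxkx
  exact mul_eq_left.1 h5

/-- **Row Om-C3, `q` even, `r ≥ 3`, `n ≥ 3 r`.** -/
theorem omC3E : Cfsg.Agent.H778.EP.OmRow fun F _ _ ι _ _ Qf H =>
    ∃ (r : ℕ) (K : Subalgebra F (Matrix ι ι F)), r.Prime ∧ 3 ≤ r ∧ (2 : F) = 0 ∧ 3 * r ≤ Fintype.card ι ∧
      Cfsg.Geo.IsFieldSubalgebra r K ∧ Cfsg.Geo.IsSelfAdjointFor (QuadraticMap.polar Qf) K ∧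
      H ≤ Cfsg.Geo.subalgebraNormalizer K := by
  intro Q _ _ _ A Γ h F _ _ ι _ _ Qf m h7 hQ hC
  obtain ⟨r, K, hr, hr3, h2, hdim, hK, hself, hA⟩ := hC
  have hne : Nonempty ι := Fintype.card_pos_iff.1 (by omega)
  obtain ⟨E, _, _, _, _, _, hrE, hEK, hKE⟩ := exists_field hK
  have hND := nondeg_qf hQ
  have hfinrank : finrank F (ι → F) = Fintype.card ι := Module.finrank_fintype_fun_eq_card F
  -- the data
  obtain ⟨e₁, e₂, hQ1, hQ12, hp12, T₁, T₂, hT₁, hT₂, hlin₁, hlin₂, hT₁e, hk1, hk2⟩ :=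
    exists_data2 (F := F) (E := E) (V := ι → F) (Q := qf hQ) h2 hND (by
      intro k x y
      obtain ⟨M, hM, hk⟩ := hEK k
      rw [hk, hk]
      exact hself M hM x y) (by rw [hrE]; exact hr3) (by rw [hrE, hfinrank]; exact hdim)
  have hQ2 : qf hQ e₂ ≠ 0 := by rw [← hQ12]; exact hQ1
  have hmul : ∀ (g k : GL ι F) (w : ι → F), ((g * k : GL ι F) : Matrix ι ι F) *ᵥ w =
      (g : Matrix ι ι F) *ᵥ ((k : Matrix ι ι F) *ᵥ w) := by
    intro g k w
    rw [Units.val_mul, Matrix.mulVec_mulVec]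
  let R₁ : (ι → F) ≃ₗ[F] (ι → F) := refl (qf hQ) e₁ hQ1
  let R₂ : (ι → F) ≃ₗ[F] (ι → F) := refl (qf hQ) e₂ hQ2
  have hR₁ : R₁ ∈ O (qf hQ) := refl_mem_O hQ1
  have hR₂ : R₂ ∈ O (qf hQ) := refl_mem_O hQ2
  let t₁ : GL ι F := (glEquiv ι F).symm T₁
  let t₂ : GL ι F := (glEquiv ι F).symm T₂
  let s₁ : GL ι F := (glEquiv ι F).symm R₁
  have hiso : ∀ T : (ι → F) ≃ₗ[F] (ι → F), T ∈ O (qf hQ) → (glEquiv ι F).symm T ∈ Cfsg.isometryGroup F Qf := by
    intro T hT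
    refine mem_iso_iff.2 fun w => ?_
    rw [← glEquiv_apply, MulEquiv.apply_symm_apply]
    exact hT w
  have hap : ∀ (T : (ι → F) ≃ₗ[F] (ι → F)) w, (((glEquiv ι F).symm T : GL ι F) : Matrix ι ι F) *ᵥ w = T w := by
    intro T w
    rw [← glEquiv_apply, MulEquiv.apply_symm_apply]
  have hnorm : ∀ t : GL ι F, (∀ (k : E) w, (t : Matrix ι ι F) *ᵥ (k • w) = k • ((t : Matrix ι ι F) *ᵥ w)) →
      t ∈ Cfsg.Geo.subalgebraNormalizer K := by
    intro t ht
    apply mem_normalizer_of_comm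
    intro M hM
    obtain ⟨k, hk⟩ := hKE M hM
    apply Matrix.mulVec_injective
    funext w
    rw [← Matrix.mulVec_mulVec, ← Matrix.mulVec_mulVec, ← hk, ht, hk]
  let k : GL ι F := t₁ * t₂ * t₁⁻¹ * t₂⁻¹
  let x : GL ι F := s₁ * t₁ * s₁⁻¹ * t₁⁻¹
  have hkS : k ∈ Cfsg.Geo.omegaGL Qf := commutator_mem_omegaGL (hiso T₁ hT₁) (hiso T₂ hT₂)
  have hxS : x ∈ Cfsg.Geo.omegaGL Qf := commutator_mem_omegaGL (hiso R₁ hR₁) (hiso T₁ hT₁)
  have hn₁ : t₁ ∈ Cfsg.Geo.subalgebraNormalizer K := hnorm t₁ fun k w => by rw [hap, hap, hlin₁]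
  have hn₂ : t₂ ∈ Cfsg.Geo.subalgebraNormalizer K := hnorm t₂ fun k w => by rw [hap, hap, hlin₂]
  have hkK : k ∈ Cfsg.Geo.subalgebraNormalizer K := mul_mem (mul_mem (mul_mem hn₁ hn₂) (inv_mem hn₁)) (inv_mem hn₂)
  have hkT : glEquiv ι F k = T₁ * T₂ * T₁⁻¹ * T₂⁻¹ := by
    simp only [k, t₁, t₂, map_mul, map_inv, MulEquiv.apply_symm_apply]
  have hxT : glEquiv ι F x = R₁ * R₂ := by
    have h1 : glEquiv ι F x = R₁ * T₁ * R₁⁻¹ * T₁⁻¹ := by
      simp only [x, s₁, t₁, map_mul, map_inv, MulEquiv.apply_symm_apply]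
    have h3 : T₁ * R₁ * T₁⁻¹ = R₂ := by
      have hq : qf hQ (T₁ e₁) ≠ 0 := by rw [hT₁e]; exact hQ2
      have h4 := refl_conj hT₁ hQ1 hq
      refine h4.trans ?_
      congr 1
    have h4 : R₁⁻¹ = R₁ := refl_inv hQ1
    rw [h1, h4, ← h3]
    group
  have hkO : T₁ * T₂ * T₁⁻¹ * T₂⁻¹ ∈ O (qf hQ) :=
    mul_mem (mul_mem (mul_mem hT₁ hT₂) (inv_mem hT₁)) (inv_mem hT₂)
  clear_value k x
  refine core h m hQ hr hr3 hdim hK hA hxS hkS (u := e₁) (v := e₂) ?_ hkK ?_ ?_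
  · rintro _ ⟨w, rfl⟩
    rw [LinearMap.sub_apply, Module.End.one_apply, Matrix.mulVecLin_apply, ← glEquiv_apply, hxT, Submodule.mem_span_pair]
    show ∃ a b : F, a • e₁ + b • e₂ = refl (qf hQ) e₁ hQ1 (refl (qf hQ) e₂ hQ2 w) - w
    refine ⟨-((qf hQ e₁)⁻¹ * polar (qf hQ) e₁ (w - ((qf hQ e₂)⁻¹ * polar (qf hQ) e₂ w) • e₂)),
      -((qf hQ e₂)⁻¹ * polar (qf hQ) e₂ w), ?_⟩
    rw [refl_apply hQ2, refl_apply hQ1]
    module
  · -- `x k x = k`
    apply (glEquiv ι F).injective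
    rw [map_mul, map_mul, hxT]
    set k' := glEquiv ι F k with hk'
    have hk'O : k' ∈ O (qf hQ) := by rw [hkT]; exact hkO
    have e1 : k' * R₁ * k'⁻¹ = R₂ := by
      have hq : qf hQ (k' e₁) ≠ 0 := by rw [hkT, hk1]; exact hQ2
      refine (refl_conj hk'O hQ1 hq).trans ?_
      congr 1
      rw [hkT, hk1]
    have e2 : k' * R₂ * k'⁻¹ = R₁ := by
      have hq : qf hQ (k' e₂) ≠ 0 := by rw [hkT, hk2]; exact hQ1
      refine (refl_conj hk'O hQ2 hq).trans ?_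
      congr 1
      rw [hkT, hk2]
    have e3 : R₁ * R₁ = 1 := refl_mul_self hQ1
    have e4 : R₂ * R₂ = 1 := refl_mul_self hQ2
    -- `R₁ R₂ k' R₁ R₂ = R₁ R₂ (k' R₁ k'⁻¹) (k' R₂ k'⁻¹) k' = R₁ R₂ R₂ R₁ k'`
    have e5 : R₁ * R₂ * k' * (R₁ * R₂) = R₁ * R₂ * (k' * R₁ * k'⁻¹) * (k' * R₂ * k'⁻¹) * k' := by group
    rw [e5, e1, e2, mul_assoc R₁ R₂ R₂, e4, mul_one, e3, one_mul]
  · -- `x² ≠ 1`
    intro hxx
    have h1 : R₁ * R₂ * (R₁ * R₂) = 1 := by
      rw [← hxT, ← map_mul, hxx, map_one]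
    have e3 : R₁ * R₁ = 1 := refl_mul_self hQ1
    have e4 : R₂ * R₂ = 1 := refl_mul_self hQ2
    have h3 : R₁ * R₂ = R₂ * R₁ := by
      calc R₁ * R₂ = R₁ * R₂ * (R₁ * R₂) * (R₂ * R₁) := by
            have : R₁ * R₂ * (R₁ * R₂) * (R₂ * R₁) = R₁ * R₂ * R₁ * (R₂ * R₂) * R₁ := by group
            rw [this, e4, mul_one, mul_assoc (R₁ * R₂) R₁ R₁, e3, mul_one]
        _ = R₂ * R₁ := by rw [h1, one_mul]
    have h4 : R₁ (R₂ e₁) = R₂ (R₁ e₁) := LinearEquiv.congr_fun h3 e₁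
    have h5 : ∀ y, R₁ y = y - ((qf hQ e₁)⁻¹ * polar (qf hQ) e₁ y) • e₁ := fun y => refl_apply hQ1 y
    have h6 : ∀ y, R₂ y = y - ((qf hQ e₂)⁻¹ * polar (qf hQ) e₂ y) • e₂ := fun y => refl_apply hQ2 y
    have h11 : polar (qf hQ) e₁ e₁ = 0 := by rw [polar_self', h2, zero_mul]
    have h7 : R₁ e₁ = e₁ := by rw [h5, h11, mul_zero, zero_smul, sub_zero]
    rw [h7, h6, h5, polar_sub_right, polar_smul_right, h11, zero_sub, sub_eq_self] at h4
    have he1 : e₁ ≠ 0 := by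
      rintro rfl
      exact hQ1 (QuadraticMap.map_zero _)
    rcases smul_eq_zero.1 h4 with h8 | h8
    · have hp21 : polar (qf hQ) e₂ e₁ ≠ 0 := by rw [polar_comm]; exact hp12
      rcases mul_eq_zero.1 h8 with h9 | h9
      · exact inv_ne_zero hQ1 h9
      · rw [neg_eq_zero, smul_eq_mul] at h9
        exact mul_ne_zero (mul_ne_zero (inv_ne_zero hQ2) hp21) hp12 h9
    · exact he1 h8

end Cfsg.Agent.H408.EP
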